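import Mathlib
import Cfsg.Agent.Lib.Lead.SylTwoSym

/-!
# Statements of the pieces for S2245
(a Sylow 2-subgroup of `A_n` / `S_n` lies in a unique maximal subgroup iff `n = 2 ^ k + 1`)

Every `def` below is a `Prop`: the exact statement of one piece of the proof.  A piece `X` is a
theorem `main : Cfsg.Agent.Lib.Lead.MaxStmt.X`.  The assembly is `Cfsg.Agent.S2245`.

Notation.  `Q` is a maximal 2-subgroup (`Max2`) of `Perm Ω`.  `Pairing Q ι`: the involution `ι`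
of `Ω` whose 2-cycles are the transpositions lying in `Q`; it has at most one fixed point and
commutes with `Q`.
-/

set_option autoImplicit false

namespace Cfsg.Agent.Lib.Lead.MaxStmt

open Equiv MulAction
open scoped Pointwise
open Cfsg.Agent.Lib.Lead.SylTwoSym

/-- `ι` is the pairing of the subgroup `Q` of `Perm Ω`: `ι x ≠ x` implies that the transposition
`(x, ι x)` lies in `Q`, `ι` is an involution with at most one fixed point, commuting with `Q`. -/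
structure Pairing {Ω : Type} [DecidableEq Ω] (Q : Subgroup (Perm Ω)) (ι : Ω → Ω) : Prop where
  invol : ∀ x, ι (ι x) = x
  swap_mem : ∀ x, ι x ≠ x → swap x (ι x) ∈ Q
  fix_unique : ∀ x y, ι x = x → ι y = y → x = y
  comm : ∀ g ∈ Q, ∀ x, g (ι x) = ι (g x)

/-- Case I: a set `A` with `{A, Aᶜ}` invariant under `Q`, a pair `a, ι a` inside `A`, a pair
`b, ι b` outside `A`, and a fifth point `c`. -/
def CondI {Ω : Type} [DecidableEq Ω] (Q : Subgroup (Perm Ω)) : Prop :=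
  ∃ (ι : Ω → Ω) (A : Set Ω) (a b c : Ω), Pairing Q ι ∧ (∀ g ∈ Q, g • A = A ∨ g • A = Aᶜ) ∧
    a ∈ A ∧ ι a ∈ A ∧ ι a ≠ a ∧ b ∉ A ∧ ι b ∉ A ∧ ι b ≠ b ∧
    c ≠ a ∧ c ≠ ι a ∧ c ≠ b ∧ c ≠ ι b

/-- Case II: `Q` fixes `u` and is transitive on the other points. -/
def CondII {Ω : Type} (Q : Subgroup (Perm Ω)) (u : Ω) : Prop :=
  (∀ g ∈ Q, g u = u) ∧ ∀ p q, p ≠ u → q ≠ u → ∃ g ∈ Q, g p = q

/-- [P1] the pairing of a maximal 2-subgroup exists. -/
def P1 : Prop :=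
  ∀ (Ω : Type) [DecidableEq Ω] [Fintype Ω] (Q : Subgroup (Perm Ω)), Max2 Q → ∃ ι : Ω → Ω, Pairing Q ι

/-- [HALVES] a transitive 2-group has a system of two blocks. -/
def Halves : Prop :=
  ∀ (Ω : Type) [DecidableEq Ω] [Fintype Ω] (Q : Subgroup (Perm Ω)), IsPGroup 2 Q →
    (∀ p q : Ω, ∃ g ∈ Q, g p = q) → 2 ≤ Fintype.card Ω →
    ∃ A : Set Ω, A.Nonempty ∧ Aᶜ.Nonempty ∧ ∀ g ∈ Q, g • A = A ∨ g • A = Aᶜ

/-- [DICH] case I or case II. -/
def Dichotomy : Prop :=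
  Halves → ∀ (Ω : Type) [DecidableEq Ω] [Fintype Ω] (Q : Subgroup (Perm Ω)) (ι : Ω → Ω),
    Pairing Q ι → IsPGroup 2 Q → 5 ≤ Fintype.card Ω → CondI Q ∨ ∃ u, CondII Q u

/-- [CARD] in case II the degree is `2 ^ k + 1`. -/
def CardOf : Prop :=
  ∀ (Ω : Type) [DecidableEq Ω] [Fintype Ω] (Q : Subgroup (Perm Ω)) (u : Ω), IsPGroup 2 Q →
    CondII Q u → 2 ≤ Fintype.card Ω → ∃ k : ℕ, Fintype.card Ω = 2 ^ k + 1

/-- [CYC] in degree `2 ^ k + 1` a Sylow 2-subgroup is in case II. -/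
def Cyc : Prop :=
  ∀ (Ω : Type) [DecidableEq Ω] [Fintype Ω] (Q : Sylow 2 (Perm Ω)) (k : ℕ), 1 ≤ k →
    Fintype.card Ω = 2 ^ k + 1 → ∃ u, CondII (Q : Subgroup (Perm Ω)) u

/-- [SNU] case I: no unique maximal subgroup of the symmetric group. -/
def SymNotUnique : Prop :=
  ∀ (Ω : Type) [DecidableEq Ω] [Fintype Ω] (Q : Subgroup (Perm Ω)), CondI Q →
    ¬ ∃! M : Subgroup (Perm Ω), IsCoatom M ∧ Q ≤ M

/-- [ALTMAX] a subgroup of the alternating group properly containing the stabilizer of `s` for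
which `sᶜ` is not a block is everything. -/
def AltMax : Prop :=
  ∀ (Ω : Type) [DecidableEq Ω] [Fintype Ω] (s : Set Ω) (G : Subgroup ↥(alternatingGroup Ω)),
    s.Nontrivial → s.ncard ≤ sᶜ.ncard → 4 < Nat.card Ω →
    stabilizer ↥(alternatingGroup Ω) s < G → ¬ IsBlock G sᶜ → G = ⊤

/-- [ANU] case I: no unique maximal subgroup of the alternating group. -/
def AltNotUnique : Prop :=
  AltMax → ∀ (Ω : Type) [DecidableEq Ω] [Fintype Ω] (Q : Subgroup (Perm Ω)), CondI Q →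
    ∀ R : Subgroup ↥(alternatingGroup Ω), (∀ r ∈ R, (r : Perm Ω) ∈ Q) →
    ¬ ∃! M : Subgroup ↥(alternatingGroup Ω), IsCoatom M ∧ R ≤ M

/-- the explicit form of 2-transitivity -/
def TwoTransC {Ω : Type} (M : Subgroup (Perm Ω)) : Prop :=
  ∀ p q p' q' : Ω, p ≠ q → p' ≠ q' → ∃ g ∈ M, g p = p' ∧ g q = q'

/-- [TT] a group moving `u` whose stabilizer of `u` is transitive on the other points is
2-transitive. -/
def TwoTrans : Prop :=
  ∀ (Ω : Type) [DecidableEq Ω] [Fintype Ω] (M : Subgroup (Perm Ω)) (u : Ω),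
    (∀ p q, p ≠ u → q ≠ u → ∃ g ∈ M, g u = u ∧ g p = q) → (∃ m ∈ M, m u ≠ u) → TwoTransC M

/-- [PRIM] 2-transitive groups are primitive. -/
def Prim : Prop :=
  ∀ (Ω : Type) [DecidableEq Ω] [Fintype Ω] (M : Subgroup (Perm Ω)), TwoTransC M →
    3 ≤ Fintype.card Ω → IsPreprimitive M Ω

/-- [SU] case II: a unique maximal subgroup of the symmetric group. -/
def SymUnique : Prop :=
  TwoTrans → ∀ (Ω : Type) [DecidableEq Ω] [Fintype Ω] (Q : Subgroup (Perm Ω)) (ι : Ω → Ω) (u : Ω),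
    Pairing Q ι → CondII Q u → 5 ≤ Fintype.card Ω →
    ∃! M : Subgroup (Perm Ω), IsCoatom M ∧ Q ≤ M

/-- [TCS] two double transpositions with exactly one common point: the square of the product
is a 3-cycle. -/
def ThreeCycleSq : Prop :=
  ∀ (Ω : Type) [DecidableEq Ω] [Fintype Ω] (z p q₁ q₂ c d₁ d₂ : Ω),
    [z, p, q₁, q₂, c, d₁, d₂].Nodup →
    (((swap z p * swap q₁ q₂) * (swap z c * swap d₁ d₂)) ^ 2).IsThreeCycle

/-- conclusion of [TCI] -/
def ThreeCycleInC : Prop :=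
  ∀ (Ω : Type) [DecidableEq Ω] [Fintype Ω] (M : Subgroup (Perm Ω)) (ι : Ω → Ω) (u : Ω),
    (∀ x, ι (ι x) = x) → (∀ x, ι x = x ↔ x = u) → 9 ≤ Fintype.card Ω →
    (∀ p q, p ≠ u → q ≠ u → q ≠ p → q ≠ ι p → swap p (ι p) * swap q (ι q) ∈ M) →
    (∃ m ∈ M, m u ≠ u) → ∃ g ∈ M, g.IsThreeCycle

/-- [TCI] a group containing all the double transpositions of the pairing and moving the
fixed point of the pairing contains a 3-cycle (degree at least 9). -/
def ThreeCycleIn : Prop := ThreeCycleSq → ThreeCycleInC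

/-- [AUB] case II, degree at least 9: a unique maximal subgroup of the alternating group. -/
def AltUniqueBig : Prop :=
  TwoTrans → Prim → ThreeCycleInC →
    ∀ (Ω : Type) [DecidableEq Ω] [Fintype Ω] (Q : Subgroup (Perm Ω)) (ι : Ω → Ω) (u : Ω),
    Pairing Q ι → CondII Q u → 9 ≤ Fintype.card Ω →
    ∀ R : Subgroup ↥(alternatingGroup Ω), (∀ r : ↥(alternatingGroup Ω), r ∈ R ↔ (r : Perm Ω) ∈ Q) →
    ∃! M : Subgroup ↥(alternatingGroup Ω), IsCoatom M ∧ R ≤ M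

/-- [AU5] case II, degree 5: a unique maximal subgroup of the alternating group. -/
def AltUniqueFive : Prop :=
  ∀ (Q : Subgroup (Perm (Fin 5))) (ι : Fin 5 → Fin 5) (u : Fin 5), Pairing Q ι → CondII Q u →
    ∀ R : Sylow 2 ↥(alternatingGroup (Fin 5)),
    (∀ r : ↥(alternatingGroup (Fin 5)), r ∈ R ↔ (r : Perm (Fin 5)) ∈ Q) →
    ∃! M : Subgroup ↥(alternatingGroup (Fin 5)),
      IsCoatom M ∧ (R : Subgroup ↥(alternatingGroup (Fin 5))) ≤ M

end Cfsg.Agent.Lib.Lead.MaxStmt
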