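import Mathlib
import Cfsg.Agent.Lib.Lead.MaxStmt

/-!
# Assembly of S2245 from its pieces (see `MaxStmt`)
-/

set_option autoImplicit false

namespace Cfsg.Agent.Lib.Lead.MaxAsm

open Equiv MulAction
open scoped Pointwise
open Cfsg.Agent.Lib.Lead.SylTwoSym Cfsg.Agent.Lib.Lead.MaxStmt

theorem two_le_of {n k : ℕ} (hn : 5 ≤ n) (h : n = 2 ^ k + 1) : 2 ≤ k := by
  by_contra hk
  have : k = 0 ∨ k = 1 := by omega
  rcases this with rfl | rfl <;> simp at h <;> omega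

/-- a Sylow 2-subgroup of the alternating group is the even part of a Sylow 2-subgroup of the
symmetric group -/
theorem exists_sylow_perm {Ω : Type} [DecidableEq Ω] [Fintype Ω]
    (R : Sylow 2 ↥(alternatingGroup Ω)) :
    ∃ Q : Sylow 2 (Perm Ω), ∀ r : ↥(alternatingGroup Ω), r ∈ R ↔ (r : Perm Ω) ∈ Q := by
  haveI : Fact (Nat.Prime 2) := ⟨Nat.prime_two⟩
  have h1 : IsPGroup 2 ((R : Subgroup ↥(alternatingGroup Ω)).map (alternatingGroup Ω).subtype) :=
    R.isPGroup'.map _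
  obtain ⟨Q, hQ⟩ := h1.exists_le_sylow
  refine ⟨Q, fun r => ⟨fun hr => hQ ⟨r, hr, rfl⟩, fun hr => ?_⟩⟩
  have h2 : IsPGroup 2 ((Q : Subgroup (Perm Ω)).comap (alternatingGroup Ω).subtype) :=
    Q.isPGroup'.comap_of_injective _ (Subgroup.subtype_injective _)
  have h3 : (R : Subgroup ↥(alternatingGroup Ω)) ≤
      (Q : Subgroup (Perm Ω)).comap (alternatingGroup Ω).subtype :=
    fun x hx => hQ ⟨x, hx, rfl⟩
  have h4 := R.is_maximal' h2 h3
  have h5 : r ∈ (Q : Subgroup (Perm Ω)).comap (alternatingGroup Ω).subtype := hr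
  rw [h4] at h5
  exact h5

theorem assembly (hP1 : P1) (hH : Halves) (hD : Dichotomy) (hC : CardOf) (hCyc : Cyc)
    (hSNU : SymNotUnique) (hAM : AltMax) (hANU : AltNotUnique) (hTT : TwoTrans) (hPrim : Prim)
    (hSU : SymUnique) (hTCS : ThreeCycleSq) (hTCI : ThreeCycleIn) (hAUB : AltUniqueBig)
    (hAU5 : AltUniqueFive) (n : ℕ) (hn : 5 ≤ n) :
    ((∀ R : Sylow 2 ↥(alternatingGroup (Fin n)), (∃! M : Subgroup ↥(alternatingGroup (Fin n)), IsCoatom M ∧ (R : Subgroup ↥(alternatingGroup (Fin n))) ≤ M) ↔ ∃ k : ℕ, 2 ≤ k ∧ n = 2 ^ k + 1) ∧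
    (∀ R : Sylow 2 (Equiv.Perm (Fin n)), (∃! M : Subgroup (Equiv.Perm (Fin n)), IsCoatom M ∧ (R : Subgroup (Equiv.Perm (Fin n))) ≤ M) ↔ ∃ k : ℕ, 2 ≤ k ∧ n = 2 ^ k + 1)) := by
  have hcard : Fintype.card (Fin n) = n := Fintype.card_fin n
  constructor
  · intro R
    obtain ⟨Q, hQ⟩ := exists_sylow_perm R
    have hmax : Max2 (Q : Subgroup (Perm (Fin n))) := max2_of_sylow Q
    obtain ⟨ι, hι⟩ := hP1 (Fin n) _ hmax
    constructor
    · intro huniq
      rcases hD hH (Fin n) _ ι hι hmax.1 (by rw [hcard]; exact hn) with hI | ⟨u, hII⟩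
      · exact absurd huniq (hANU hAM (Fin n) _ hI _ (fun r hr => (hQ r).mp hr))
      · obtain ⟨k, hk⟩ := hC (Fin n) _ u hmax.1 hII (by rw [hcard]; omega)
        rw [hcard] at hk
        exact ⟨k, two_le_of hn hk, hk⟩
    · rintro ⟨k, hk2, hk⟩
      obtain ⟨u, hII⟩ := hCyc (Fin n) Q k (by omega) (by rw [hcard]; exact hk)
      rcases Nat.lt_or_ge k 3 with h3 | h3
      · have hk' : k = 2 := by omega
        subst hk'
        have hn5 : n = 5 := by rw [hk]; norm_num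
        subst hn5
        exact hAU5 _ ι u hι hII R hQ
      · have h9 : 9 ≤ n := by
          have : 2 ^ 3 ≤ 2 ^ k := Nat.pow_le_pow_right (by norm_num) h3
          omega
        exact hAUB hTT hPrim (hTCI hTCS) (Fin n) _ ι u hι hII (by rw [hcard]; exact h9) _ hQ
  · intro Q
    have hmax : Max2 (Q : Subgroup (Perm (Fin n))) := max2_of_sylow Q
    obtain ⟨ι, hι⟩ := hP1 (Fin n) _ hmax
    constructor
    · intro huniq
      rcases hD hH (Fin n) _ ι hι hmax.1 (by rw [hcard]; exact hn) with hI | ⟨u, hII⟩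
      · exact absurd huniq (hSNU (Fin n) _ hI)
      · obtain ⟨k, hk⟩ := hC (Fin n) _ u hmax.1 hII (by rw [hcard]; omega)
        rw [hcard] at hk
        exact ⟨k, two_le_of hn hk, hk⟩
    · rintro ⟨k, hk2, hk⟩
      obtain ⟨u, hII⟩ := hCyc (Fin n) Q k (by omega) (by rw [hcard]; exact hk)
      exact hSU hTT (Fin n) _ ι u hι hII (by rw [hcard]; exact hn)

end Cfsg.Agent.Lib.Lead.MaxAsm
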