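import Mathlib
import Cfsg.Agent.Lib.Lead.MaxStmt

/-!
# S2245, piece P1: the pairing of a maximal 2-subgroup of a symmetric group
-/

set_option autoImplicit false

namespace Cfsg.Agent.Lib.Lead.MaxP1

open Equiv MulAction Cfsg.Agent.Lib.Lead.MaxStmt Cfsg.Agent.Lib.Lead.SylTwoSym
open scoped Pointwise

theorem main : P1 := by
  intro Ω _ _ Q hQ
  classical
  let ι : Ω → Ω := fun x => if h : ∃ τ ∈ swapsIn Q, τ x ≠ x then (Classical.choose h) x else x
  have hcov : ∀ x (τ : Perm Ω), τ ∈ swapsIn Q → τ x ≠ x → ι x = τ x := by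
    intro x τ hτ hx
    have h : ∃ τ ∈ swapsIn Q, τ x ≠ x := ⟨τ, hτ, hx⟩
    have hs := Classical.choose_spec h
    have e : Classical.choose h = τ := eq_of_moves hQ.1 hs.1 hτ hs.2 hx
    simp only [ι, dif_pos h, e]
  have hunc : ∀ x, (∀ τ ∈ swapsIn Q, τ x = x) → ι x = x := by
    intro x hx
    have h : ¬ ∃ τ ∈ swapsIn Q, τ x ≠ x := by
      rintro ⟨τ, hτ, h⟩; exact h (hx τ hτ)
    simp only [ι, dif_neg h]
  have hcase : ∀ x, (∃ τ ∈ swapsIn Q, τ x ≠ x) ∨ (∀ τ ∈ swapsIn Q, τ x = x) := by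
    intro x
    by_cases h : ∃ τ ∈ swapsIn Q, τ x ≠ x
    · exact Or.inl h
    · right; intro τ hτ; by_contra h'; exact h ⟨τ, hτ, h'⟩
  refine ⟨ι, ⟨?_, ?_, ?_, ?_⟩⟩
  · intro x
    rcases hcase x with ⟨τ, hτ, hx⟩ | hx
    · rw [hcov x τ hτ hx]
      have h2 : τ (τ x) ≠ τ x := by
        rw [isSwap_apply_apply hτ.2]; exact Ne.symm hx
      rw [hcov (τ x) τ hτ h2, isSwap_apply_apply hτ.2]
    · rw [hunc x hx, hunc x hx]
  · intro x hx
    rcases hcase x with ⟨τ, hτ, hx'⟩ | hx'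
    · rw [hcov x τ hτ hx', ← swap_of_moves hτ.2 hx']
      exact hτ.1
    · exact absurd (hunc x hx') hx
  · intro x y hx hy
    by_contra hne
    have hx' : ∀ τ ∈ swapsIn Q, τ x = x := by
      intro τ hτ
      by_contra h
      rw [hcov x τ hτ h] at hx
      exact h hx
    have hy' : ∀ τ ∈ swapsIn Q, τ y = y := by
      intro τ hτ
      by_contra h
      rw [hcov y τ hτ h] at hy
      exact h hy
    exact covered_of_max2 hQ hne hx' hy'
  · intro g hg x
    have hconj : ∀ τ ∈ swapsIn Q, g * τ * g⁻¹ ∈ swapsIn Q := fun τ hτ =>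
      ⟨Q.mul_mem (Q.mul_mem hg hτ.1) (Q.inv_mem hg), isSwap_conj hτ.2 g⟩
    have hconj' : ∀ τ ∈ swapsIn Q, g⁻¹ * τ * g ∈ swapsIn Q := fun τ hτ => by
      have := isSwap_conj hτ.2 g⁻¹
      rw [inv_inv] at this
      exact ⟨Q.mul_mem (Q.mul_mem (Q.inv_mem hg) hτ.1) hg, this⟩
    rcases hcase x with ⟨τ, hτ, hx⟩ | hx
    · rw [hcov x τ hτ hx]
      have h2 : (g * τ * g⁻¹) (g x) ≠ g x := by
        have e : (g * τ * g⁻¹) (g x) = g (τ x) := by simp
        rw [e]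
        exact fun h => hx (g.injective h)
      rw [hcov (g x) _ (hconj τ hτ) h2]
      simp
    · rw [hunc x hx]
      symm
      apply hunc
      intro τ hτ
      have h3 := hx _ (hconj' τ hτ)
      simp only [Perm.mul_apply] at h3
      have h4 := congrArg g h3
      simpa using h4

end Cfsg.Agent.Lib.Lead.MaxP1
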